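import Cfsg.Agent.H781.TC6.Odd
import Cfsg.Agent.H311.TC6.GF
import Cfsg.Agent.H777.T6.Defs

/-!
# S2464, S2452, `Ω_(2n+1)(q)`, `q` odd: rows from Theorem L (helper781)

* `t6_odd_TL` : all `n ≥ 3`, except `n = 4`, `q ≠ 3 ^ k`, `k ≥ 2`.
* `pp_odd_TL` : `n` odd, one class of prime order.
-/

set_option autoImplicit false
set_option linter.unusedSectionVars false

namespace Cfsg.Agent.H781.TC6

open Module QuadraticMap Matrix Polynomial Cfsg.Agent.LieClassical.OrthCore Cfsg.Agent.LieClassical.OrthTrans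
  Cfsg.Agent.LieClassical.OrthFinite Cfsg.Agent.LieClassical.OrthForms Cfsg.Agent.H140.OreO Cfsg.Agent.H126.PwO
  Cfsg.Agent.H962.PP Cfsg.Agent.H141.SpinFacts
open Cfsg.Agent.H434.Corn (MaxTS)
open Cfsg.Agent.H140.TC

theorem t6_odd_TL {F : Type*} [Field F] [Fintype F] (hodd : Odd (Fintype.card F)) {n : ℕ} (hn : 3 ≤ n)
    (h4 : n = 4 → ∃ k, 2 ≤ k ∧ Fintype.card F = 3 ^ k)
    (hTL : ∀ (N : ℕ) (f : F[X]), N.Coprime 6 → GF n N f → TLf n f) :
    Cfsg.Agent.H777.T6.T6 (Cfsg.POmega F (Cfsg.quadFormOdd n F)) := by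
  obtain ⟨N, f, hN, hgf⟩ := Cfsg.Agent.H311.TC6.exists_gf hodd hn h4
  exact t6_odd_of hodd hn hN hgf (hTL N f hN hgf)

/-- one fixed class of exponent `N` -/
def OneN {F V : Type*} [Field F] [AddCommGroup V] [Module F V] (N : ℕ) (Q : QuadraticForm F V) : Prop :=
  ∃ x₀ ∈ Om Q, x₀ ^ N = 1 ∧ TwoOf Q x₀ x₀

section Fin

variable {F V : Type*} [Field F] [AddCommGroup V] [Module F V] {Q : QuadraticForm F V} [Finite F]
  [FiniteDimensional F V]

theorem oneN_odd (h2 : (2 : F) ≠ 0) (hQ : Nondeg Q) {m : ℕ} (hm : 3 ≤ m) (hdim : finrank F V = 2 * m + 1)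
    (hW : ∀ W, MaxTS Q W → finrank F W = m) {N : ℕ} {f : F[X]} (hgf : GF m N f) (hTL : TLf m f) : OneN N Q := by
  by_cases h : ∃ g ∈ Om Q, ∀ c : F, ∃ v, g v ≠ c • v
  · obtain ⟨g, hg, hns⟩ := h
    obtain ⟨e, e', hf, -⟩ := nsCorner hQ hg hns hm hW
    have hf0 : f.coeff 0 ≠ 0 := by
      intro h0
      have := hgf.c0
      rw [h0, mul_zero] at this
      exact zero_ne_one this
    obtain ⟨B, hB⟩ := exists_matrix f hgf.monic hf0 hgf.deg
    have hBd : (B : Matrix (Fin m) (Fin m) F).det = 1 := det_of_charpoly hB hgf.c0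
    have hBN : B ^ N = 1 := pow_of_charpoly hB hgf.dvd
    have he : ∀ v, MQ m (res Q e e') (hf.toModel v) = Q v := hf.MQ_toModel
    have hG : Good (MQ m (res Q e e')) := good_model hQ hm hf
    have hOm : lev B (1 : perp Q e e' ≃ₗ[F] perp Q e e') ∈ Om (MQ m (res Q e e')) :=
      lev_det_one_mem hG hBd
    have hOm' : (autE hf.toModel).symm (lev B (1 : perp Q e e' ≃ₗ[F] perp Q e e')) ∈ Om Q := by
      rw [← autE_mem_Om he, MulEquiv.apply_symm_apply]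
      exact hOm
    have hpow : ((autE hf.toModel).symm (lev B (1 : perp Q e e' ≃ₗ[F] perp Q e e'))) ^ N = 1 := by
      rw [← map_pow, lev_pow, hBN, one_pow, lev_one, map_one]
    exact ⟨_, hOm', hpow, twoOf_irr h2 hQ hm hdim hW hf hgf hTL hB⟩
  · exact ⟨1, one_mem _, one_pow _, fun g hg hns => absurd ⟨g, hg, hns⟩ h⟩

end Fin

theorem pp_of_one {ι : Type} [Fintype ι] [DecidableEq ι] {F : Type*} [Field F] {N : ℕ} (hN : N.Coprime 6)
    (hNp : N.Prime) (Q : QuadraticForm F (ι → F)) (hnt : ∃ g : Cfsg.POmega F ⇑Q, g ≠ 1) (h : OneN N Q) :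
    Cfsg.Agent.H494.TC.PP (Cfsg.POmega F ⇑Q) := by
  obtain ⟨x₀, hx₀, hxN, h⟩ := h
  have key : ∀ g : Cfsg.POmega F ⇑Q, g ≠ 1 → ∃ u v : Cfsg.POmega F ⇑Q,
      g = (u * QuotientGroup.mk ((omegaEquiv Q).symm ⟨x₀, hx₀⟩) * u⁻¹) *
        (v * QuotientGroup.mk ((omegaEquiv Q).symm ⟨x₀, hx₀⟩) * v⁻¹) := by
    intro g hg
    obtain ⟨g, rfl⟩ := QuotientGroup.mk_surjective g
    have hs : ∀ c : F, ∃ v, (omegaEquiv Q g : (ι → F) ≃ₗ[F] (ι → F)) v ≠ c • v := by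
      by_contra hs
      push Not at hs
      obtain ⟨c, hc⟩ := hs
      apply hg
      have hcen : g ∈ Subgroup.center (Cfsg.Omega F ⇑Q) := by
        rw [Subgroup.mem_center_iff]
        intro k
        apply (omegaEquiv Q).injective
        rw [map_mul, map_mul]
        apply Subtype.ext
        apply LinearEquiv.ext
        intro v
        show (omegaEquiv Q k : (ι → F) ≃ₗ[F] (ι → F)) ((omegaEquiv Q g : (ι → F) ≃ₗ[F] (ι → F)) v) =
          (omegaEquiv Q g : (ι → F) ≃ₗ[F] (ι → F)) ((omegaEquiv Q k : (ι → F) ≃ₗ[F] (ι → F)) v)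
        rw [hc, hc, map_smul]
      exact (QuotientGroup.eq_one_iff g).2 hcen
    obtain ⟨u, hu, v, hv, e⟩ := h _ (omegaEquiv Q g).2 hs
    refine ⟨QuotientGroup.mk ((omegaEquiv Q).symm ⟨u, hu⟩), QuotientGroup.mk ((omegaEquiv Q).symm ⟨v, hv⟩), ?_⟩
    have e2 : g = ((omegaEquiv Q).symm ⟨u, hu⟩ * (omegaEquiv Q).symm ⟨x₀, hx₀⟩ * ((omegaEquiv Q).symm ⟨u, hu⟩)⁻¹) *
        ((omegaEquiv Q).symm ⟨v, hv⟩ * (omegaEquiv Q).symm ⟨x₀, hx₀⟩ * ((omegaEquiv Q).symm ⟨v, hv⟩)⁻¹) := by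
      apply (omegaEquiv Q).injective
      simp only [map_mul, map_inv, MulEquiv.apply_symm_apply]
      exact Subtype.ext e
    conv_lhs => rw [e2]
    rfl
  have hdvd : orderOf (QuotientGroup.mk ((omegaEquiv Q).symm ⟨x₀, hx₀⟩) : Cfsg.POmega F ⇑Q) ∣ N := by
    apply orderOf_dvd_of_pow_eq_one
    have h1 : ((omegaEquiv Q).symm ⟨x₀, hx₀⟩) ^ N = 1 := by
      rw [← map_pow]
      have h2 : (⟨x₀, hx₀⟩ : Om Q) ^ N = 1 := Subtype.ext hxN
      rw [h2, map_one]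
    rw [← QuotientGroup.mk_pow, h1]
    rfl
  have hne : (QuotientGroup.mk ((omegaEquiv Q).symm ⟨x₀, hx₀⟩) : Cfsg.POmega F ⇑Q) ≠ 1 := by
    intro h1
    obtain ⟨g, hg⟩ := hnt
    obtain ⟨u, v, e⟩ := key g hg
    rw [h1] at e
    apply hg
    rw [e]
    group
  have ho : orderOf (QuotientGroup.mk ((omegaEquiv Q).symm ⟨x₀, hx₀⟩) : Cfsg.POmega F ⇑Q) = N := by
    rcases (Nat.dvd_prime hNp).1 hdvd with h1 | h1
    · exact absurd (orderOf_eq_one_iff.1 h1) hne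
    · exact h1
  exact ⟨_, by rw [ho]; exact hNp, by rw [ho]; exact hN, key⟩

/-- one class of prime order -/
theorem pp_odd_of {F : Type*} [Field F] [Fintype F] (hodd : Odd (Fintype.card F)) {n N : ℕ} (hn : 3 ≤ n) {f : F[X]}
    (hN : N.Coprime 6) (hNp : N.Prime) (hgf : GF n N f) (hTL : TLf n f)
    (hnt : ∃ g : Cfsg.POmega F (Cfsg.quadFormOdd n F), g ≠ 1) :
    Cfsg.Agent.H494.TC.PP (Cfsg.POmega F (Cfsg.quadFormOdd n F)) := by
  have h2 : (2 : F) ≠ 0 := by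
    intro h0
    have : CharP F 2 := CharTwo.of_one_ne_zero_of_two_eq_zero one_ne_zero h0
    have h3 := (FiniteField.even_card_iff_char_two (F := F)).1 (ringChar.eq F 2)
    rw [Nat.odd_iff] at hodd
    omega
  have h4 : OneN N (oddForm n F) := oneN_odd h2 (nondeg_oddForm n F h2) hn (by
    rw [Module.finrank_fintype_fun_eq_card]; simp; ring) (H295.War.witt_odd n) hgf hTL
  have h5 := pp_of_one hN hNp (oddForm n F) (by rw [coe_oddForm]; exact hnt) h4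
  rw [coe_oddForm] at h5
  exact h5

/-- good polynomials of prime order, `n` odd -/
theorem exists_gf_prime {F : Type*} [Field F] [Fintype F] (hodd : Odd (Fintype.card F)) {n : ℕ} (hn : 3 ≤ n)
    (hno : Odd n) : ∃ (N : ℕ) (f : F[X]), N.Coprime 6 ∧ N.Prime ∧ GF n N f := by
  have hodd' : Odd (Nat.card F) := by rw [Nat.card_eq_fintype_card]; exact hodd
  have hq : 2 ≤ Nat.card F := Finite.one_lt_card
  have hq2 : Nat.card F ≠ 2 := by intro h; rw [h] at hodd'; exact absurd hodd' (by decide)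
  obtain ⟨r, hr, h5, hiff⟩ := Cfsg.Agent.H311.TC6.exists_five hq hn (by rintro ⟨h, -⟩; exact hq2 h)
  have hrq : ¬ r ∣ Nat.card F - 1 := by
    intro h
    have := Nat.le_of_dvd (by norm_num) ((hiff 1).1 (by rwa [pow_one]))
    omega
  obtain ⟨f, m1, m2, m3, m4, m5, m6⟩ := Cfsg.Agent.H311.TC6.pf_of F (n := n) (N := r) (by omega)
    ((hiff n).2 dvd_rfl) (fun k hk hkn h => by
      have := Nat.le_of_dvd hk ((hiff k).1 h)
      omega) (fun j hj h => by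
      obtain ⟨h0, h1⟩ := Cfsg.Agent.H311.TC6.not_dvd_add h5 hiff hj h
      rw [h1] at hno
      exact (Nat.not_odd_iff_even.2 ⟨j, by ring⟩) hno) ((Nat.Prime.coprime_iff_not_dvd hr).2 hrq)
  have h0 : f.coeff 0 ≠ 0 := by
    intro h
    rw [h, mul_zero] at m6
    exact zero_ne_one m6
  have h6 : r.Coprime 6 := by
    rw [Nat.Prime.coprime_iff_not_dvd hr]
    intro h
    have h7 : r ∣ 2 * 3 := h
    rcases (Nat.Prime.dvd_mul hr).1 h7 with h8 | h8
    · have := Nat.le_of_dvd (by norm_num) h8; omega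
    · have := Nat.le_of_dvd (by norm_num) h8; omega
  exact ⟨r, f, h6, hr, m1, m2, m3, m4, (m5 r).2 dvd_rfl, m6,
    fun A c hA => Cfsg.Agent.H311.TC6.ex_of m1 m2 m3 hn m5 h0 hr h5 dvd_rfl hiff (Or.inl hno) A c hA,
    fun A hA => Cfsg.Agent.H311.TC6.nsq_of hodd' m1 m2 m3 (by omega) hA⟩

theorem pp_odd_TL {F : Type*} [Field F] [Fintype F] (hodd : Odd (Fintype.card F)) {n : ℕ} (hn : 3 ≤ n) (hno : Odd n)
    (hTL : ∀ (N : ℕ) (f : F[X]), N.Coprime 6 → GF n N f → TLf n f)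
    (hnt : ∃ g : Cfsg.POmega F (Cfsg.quadFormOdd n F), g ≠ 1) :
    Cfsg.Agent.H494.TC.PP (Cfsg.POmega F (Cfsg.quadFormOdd n F)) := by
  obtain ⟨N, f, hN, hNp, hgf⟩ := exists_gf_prime hodd hn hno
  exact pp_odd_of hodd hn hN hNp hgf (hTL N f hN hgf) hnt

end Cfsg.Agent.H781.TC6
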